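import Cfsg.Agent.Lib.Helper6.DC.Main
import Cfsg.Prelude.Def_SporadicB

namespace Cfsg.Agent.Lib.Helper6.DC

open scoped commutatorElement

/-- conclusion of `exists_cover_of` -/
def CoverSt (n : ℕ) : Prop :=
    ∃ (Γ : Type) (_ : Group Γ) (_ : Finite Γ) (π : Γ →* alternatingGroup (Fin n)) (z : Γ),
      Function.Surjective π ∧ π.ker = Subgroup.zpowers z ∧ orderOf z = 2 ∧
      z ∈ Subgroup.center Γ ∧ z ∈ commutator Γ ∧ (8 ≤ n → ∃ x : Γ, orderOf x = 2 ∧ x ≠ z)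

theorem s0891_of {n : ℕ} (h : CoverSt n) :
    ∃ (Γ : Type) (_ : Group Γ) (_ : Finite Γ) (z : Γ) (_ : z ∈ Subgroup.center Γ), orderOf z = 2 ∧
      z ∈ commutator Γ ∧ ∃ _ : (Subgroup.zpowers z).Normal,
        Nonempty (Γ ⧸ Subgroup.zpowers z ≃* alternatingGroup (Fin n)) := by
  obtain ⟨Γ, _, _, π, z, hs, hk, ho, hc, hcomm, -⟩ := h
  have hN : (Subgroup.zpowers z).Normal := hk ▸ π.normal_ker
  exact ⟨Γ, inferInstance, inferInstance, z, hc, ho, hcomm, hN,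
    ⟨(QuotientGroup.quotientMulEquivOfEq hk.symm).trans
      (QuotientGroup.quotientKerEquivOfSurjective π hs)⟩⟩

theorem no_complement {Γ : Type*} [Group Γ] (z : Γ) (hz1 : z ≠ 1) (hzc : z ∈ Subgroup.center Γ)
    (hcomm : z ∈ commutator Γ) (L : Subgroup Γ) : ¬ (Subgroup.center Γ).IsComplement' L := by
  intro h
  have hle : commutator Γ ≤ L := by
    rw [commutator_eq_closure, Subgroup.closure_le]
    rintro _ ⟨g₁, g₂, rfl⟩
    obtain ⟨⟨a₁, l₁⟩, e₁⟩ := h.2 g₁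
    obtain ⟨⟨a₂, l₂⟩, e₂⟩ := h.2 g₂
    simp only at e₁ e₂
    have c₁ := Subgroup.mem_center_iff.1 a₁.2
    have c₂ := Subgroup.mem_center_iff.1 a₂.2
    have : ⁅g₁, g₂⁆ = ⁅(l₁ : Γ), (l₂ : Γ)⁆ := by
      rw [← e₁, ← e₂, commutatorElement_def, commutatorElement_def]
      have i₁ : ((a₁ : Γ) * l₁)⁻¹ = (l₁ : Γ)⁻¹ * (a₁ : Γ)⁻¹ := mul_inv_rev _ _
      have i₂ : ((a₂ : Γ) * l₂)⁻¹ = (l₂ : Γ)⁻¹ * (a₂ : Γ)⁻¹ := mul_inv_rev _ _
      rw [i₁, i₂]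
      calc (a₁ : Γ) * l₁ * (a₂ * l₂) * ((l₁ : Γ)⁻¹ * (a₁ : Γ)⁻¹) * ((l₂ : Γ)⁻¹ * (a₂ : Γ)⁻¹)
          = (a₁ : Γ) * (l₁ * a₂) * l₂ * (l₁ : Γ)⁻¹ * ((a₁ : Γ)⁻¹ * (l₂ : Γ)⁻¹) * (a₂ : Γ)⁻¹ := by group
      _ = (a₁ : Γ) * (a₂ * l₁) * l₂ * (l₁ : Γ)⁻¹ * ((a₁ : Γ)⁻¹ * (l₂ : Γ)⁻¹) * (a₂ : Γ)⁻¹ := by rw [c₂ l₁]
      _ = ((a₁ : Γ) * a₂) * (l₁ * l₂ * (l₁ : Γ)⁻¹) * (a₁ : Γ)⁻¹ * ((l₂ : Γ)⁻¹ * (a₂ : Γ)⁻¹) := by group
      _ = (l₁ * l₂ * (l₁ : Γ)⁻¹) * ((a₁ : Γ) * a₂) * (a₁ : Γ)⁻¹ * ((l₂ : Γ)⁻¹ * (a₂ : Γ)⁻¹) := by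
            rw [← Subgroup.mem_center_iff.1 (mul_mem a₁.2 a₂.2) (l₁ * l₂ * (l₁ : Γ)⁻¹)]
      _ = (l₁ * l₂ * (l₁ : Γ)⁻¹) * ((a₁ : Γ) * a₂ * (a₁ : Γ)⁻¹) * ((l₂ : Γ)⁻¹ * (a₂ : Γ)⁻¹) := by group
      _ = (l₁ * l₂ * (l₁ : Γ)⁻¹) * (a₂ : Γ) * ((l₂ : Γ)⁻¹ * (a₂ : Γ)⁻¹) := by
            rw [c₂ a₁]; group
      _ = (l₁ * l₂ * (l₁ : Γ)⁻¹) * ((a₂ : Γ) * (l₂ : Γ)⁻¹) * (a₂ : Γ)⁻¹ := by group
      _ = (l₁ * l₂ * (l₁ : Γ)⁻¹) * ((l₂ : Γ)⁻¹ * (a₂ : Γ)) * (a₂ : Γ)⁻¹ := by rw [c₂ (l₂ : Γ)⁻¹]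
      _ = _ := by group
    rw [SetLike.mem_coe, this, commutatorElement_def]
    exact mul_mem (mul_mem (mul_mem l₁.2 l₂.2) (inv_mem l₁.2)) (inv_mem l₂.2)
  have : z ∈ Subgroup.center Γ ⊓ L := ⟨hzc, hle hcomm⟩
  rw [h.disjoint.eq_bot] at this
  exact hz1 (Subgroup.mem_bot.1 this)

theorem part2_of (h : CoverSt 8) :
    ∃ (H : Type) (_ : Group H) (_ : Finite H), Cfsg.IsNonsplitDoubleCover H (alternatingGroup (Fin 8)) ∧
      ∃ x y : H, x ≠ y ∧ orderOf x = 2 ∧ orderOf y = 2 := by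
  obtain ⟨Γ, _, _, π, z, hs, hk, ho, hc, hcomm, h8⟩ := h
  obtain ⟨x, hx, hxz⟩ := h8 le_rfl
  have hz1 : z ≠ 1 := by
    rintro rfl
    simp at ho
  have hcen : Subgroup.center Γ = Subgroup.zpowers z := by
    apply le_antisymm
    · intro g hg
      rw [← hk, MonoidHom.mem_ker]
      have : π g ∈ Subgroup.center (alternatingGroup (Fin 8)) := by
        rw [Subgroup.mem_center_iff]
        intro k
        obtain ⟨h, rfl⟩ := hs k
        rw [← map_mul, ← map_mul, Subgroup.mem_center_iff.1 hg h]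
      rw [alternatingGroup.center_eq_bot (by simp)] at this
      exact Subgroup.mem_bot.1 this
    · rw [Subgroup.zpowers_le]; exact hc
  refine ⟨Γ, inferInstance, inferInstance, ⟨?_, ?_, ?_⟩, x, z, hxz, hx, ho⟩
  · rw [hcen, Nat.card_zpowers, ho]
  · exact ⟨(QuotientGroup.quotientMulEquivOfEq (hcen.trans hk.symm)).trans
      (QuotientGroup.quotientKerEquivOfSurjective π hs)⟩
  · exact no_complement z hz1 hc hcomm

/-- hypotheses for part 1 -/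
structure Rungs : Prop where
  conj_inv : ∀ (n : ℕ) (_ : n ≤ 7) (s t : alternatingGroup (Fin n)), orderOf s = 2 →
    orderOf t = 2 → IsConj s t
  pair : ∀ (n : ℕ) (_ : 4 ≤ n) (_ : n ≤ 7), ∃ (a b : alternatingGroup (Fin n)) (k : ℕ),
    orderOf a = 2 ∧ orderOf b = 2 ∧ orderOf ((a * b) ^ k) = 2 ∧
    Nat.card (Subgroup.closure ({a, b} : Set (alternatingGroup (Fin n)))) = 4 * k ∧
    ¬ 2 ∣ (Subgroup.closure ({a, b} : Set (alternatingGroup (Fin n)))).index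
  small : ∀ (n : ℕ) (_ : n ≤ 3) (H : Type) [Group H]
    (_ : H ⧸ Subgroup.center H ≃* alternatingGroup (Fin n)),
    (Subgroup.center H).IsComplement' (⊥ : Subgroup H)
  asm : ∀ {H K : Type} [Group H] [Finite H] [Group K] [Finite K] (φ : H →* K)
    (_ : Function.Surjective φ) (_ : φ.ker = Subgroup.center H)
    (_ : Nat.card (Subgroup.center H) = 2)
    (_ : ∀ s t : K, orderOf s = 2 → orderOf t = 2 → IsConj s t)
    (a b : K) (k : ℕ) (_ : orderOf a = 2) (_ : orderOf b = 2) (_ : orderOf ((a * b) ^ k) = 2)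
    (_ : Nat.card (Subgroup.closure ({a, b} : Set K)) = 4 * k)
    (_ : ¬ 2 ∣ (Subgroup.closure ({a, b} : Set K)).index)
    (x : H) (_ : orderOf x = 2) (_ : x ∉ Subgroup.center H),
    ∃ L : Subgroup H, (Subgroup.center H).IsComplement' L

theorem part1_of (r : Rungs) (n : ℕ) (H : Type) [Group H] [Finite H] (hn : n ≤ 7)
    (hH : Cfsg.IsNonsplitDoubleCover H (alternatingGroup (Fin n))) (x y : H)
    (hx : orderOf x = 2) (hy : orderOf y = 2) : x = y := by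
  obtain ⟨hZ, ⟨e⟩, hns⟩ := hH
  by_cases h3 : n ≤ 3
  · exact absurd (r.small n h3 H e) (hns ⊥)
  have h4 : 4 ≤ n := by omega
  set φ : H →* alternatingGroup (Fin n) :=
    e.toMonoidHom.comp (QuotientGroup.mk' (Subgroup.center H)) with hφ
  have hs : Function.Surjective φ := e.surjective.comp (QuotientGroup.mk'_surjective _)
  have hk : φ.ker = Subgroup.center H := by
    ext g
    rw [MonoidHom.mem_ker, hφ, MonoidHom.comp_apply]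
    constructor
    · intro h
      have : QuotientGroup.mk' (Subgroup.center H) g = 1 := e.injective (by simpa using h)
      exact (QuotientGroup.eq_one_iff g).1 this
    · intro h
      have : QuotientGroup.mk' (Subgroup.center H) g = 1 := (QuotientGroup.eq_one_iff g).2 h
      rw [this]; simp
  have key : ∀ w : H, orderOf w = 2 → w ∈ Subgroup.center H := by
    intro w hw
    by_contra hwZ
    obtain ⟨a, b, k, ha, hb, hab, hc, ho⟩ := r.pair n h4 hn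
    obtain ⟨L, hL⟩ := r.asm φ hs hk hZ (r.conj_inv n hn) a b k ha hb hab hc ho w hw hwZ
    exact hns L hL
  have hx1 : x ≠ 1 := by rintro rfl; simp at hx
  have hy1 : y ≠ 1 := by rintro rfl; simp at hy
  obtain ⟨w, -, hw⟩ := (Nat.card_eq_two_iff' (1 : Subgroup.center H)).1 hZ
  have e1 := hw ⟨x, key x hx⟩ (fun h => hx1 (congrArg Subtype.val h))
  have e2 := hw ⟨y, key y hy⟩ (fun h => hy1 (congrArg Subtype.val h))
  exact congrArg Subtype.val (e1.trans e2.symm)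

end Cfsg.Agent.Lib.Helper6.DC
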