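import Mathlib

namespace Cfsg.Agent.Lib.Helper6.DC

open Equiv Equiv.Perm

lemma cycleType_of_inv {n : ℕ} (h7 : n ≤ 7) (σ : Perm (Fin n)) (hσ : orderOf σ = 2)
    (hs : sign σ = 1) : σ.cycleType = Multiset.replicate 2 2 := by
  obtain ⟨k, hk⟩ := cycleType_prime_order (σ := σ) (by rw [hσ]; norm_num)
  rw [hσ] at hk
  have h1 : 2 * (k + 1) ≤ 7 := by
    have := σ.sum_cycleType
    rw [hk, Multiset.sum_replicate, smul_eq_mul] at this
    have h2 : σ.support.card ≤ n := by
      simpa using Finset.card_le_univ σ.support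
    omega
  have h2 : (-1 : ℤˣ) ^ (k + 1) = 1 := by
    have := sign_of_cycleType σ
    rw [hk, hs, Multiset.sum_replicate, Multiset.card_replicate, smul_eq_mul] at this
    rw [pow_add, pow_mul'] at this
    simpa using this.symm
  have h3 : k = 1 := by
    have hk3 : k ≤ 2 := by omega
    interval_cases k
    · simp at h2
    · rfl
    · exfalso; revert h2; decide
  rw [hk, h3]

theorem conj_inv (n : ℕ) (h7 : n ≤ 7) (s t : alternatingGroup (Fin n)) (hs : orderOf s = 2)
    (ht : orderOf t = 2) : IsConj s t := by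
  have hs' : orderOf (s : Perm (Fin n)) = 2 := by rw [Subgroup.orderOf_coe, hs]
  have ht' : orderOf (t : Perm (Fin n)) = 2 := by rw [Subgroup.orderOf_coe, ht]
  have c1 := cycleType_of_inv h7 _ hs' (mem_alternatingGroup.1 s.2)
  have c2 := cycleType_of_inv h7 _ ht' (mem_alternatingGroup.1 t.2)
  have hconj : IsConj (s : Perm (Fin n)) t := (isConj_iff_cycleType_eq).2 (c1.trans c2.symm)
  obtain ⟨g, hg⟩ := isConj_iff.1 hconj
  rcases Int.units_eq_one_or (sign g) with h | h
  · exact isConj_iff.2 ⟨⟨g, mem_alternatingGroup.2 h⟩, Subtype.ext hg⟩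
  · -- an odd permutation commuting with s
    have hne : (s : Perm (Fin n)) ≠ 1 := by
      intro h1
      rw [h1] at hs'; simp at hs'
    obtain ⟨a, ha⟩ := not_forall.1 (fun h : ∀ a, (s : Perm (Fin n)) a = a => hne (Equiv.ext h))
    have hsq : (s : Perm (Fin n)) ((s : Perm (Fin n)) a) = a := by
      have : (s : Perm (Fin n)) ^ 2 = 1 := by rw [← hs']; exact pow_orderOf_eq_one _
      have h2 := congrArg (fun f : Perm (Fin n) => f a) this
      simpa [sq] using h2
    set c : Perm (Fin n) := swap a ((s : Perm (Fin n)) a) with hc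
    have hcomm : (s : Perm (Fin n)) * c * (s : Perm (Fin n))⁻¹ = c := by
      rw [hc, ← Equiv.swap_apply_apply, hsq, Equiv.swap_comm]
    have hcs : c * (s : Perm (Fin n)) * c⁻¹ = s := by
      have : (s : Perm (Fin n)) * c = c * s := by
        nth_rewrite 2 [← hcomm]; group
      rw [← this]; group
    have hsc : sign c = -1 := sign_swap (Ne.symm ha)
    refine isConj_iff.2 ⟨⟨g * c, mem_alternatingGroup.2 (by rw [map_mul, h, hsc]; rfl)⟩,
      Subtype.ext ?_⟩
    show g * c * (s : Perm (Fin n)) * (g * c)⁻¹ = t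
    rw [← hg]
    calc g * c * (s : Perm (Fin n)) * (g * c)⁻¹ = g * (c * (s : Perm (Fin n)) * c⁻¹) * g⁻¹ := by group
    _ = _ := by rw [hcs]

end Cfsg.Agent.Lib.Helper6.DC
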