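import Cfsg.Agent.Lib.Helper6.DC.Grp2

namespace Cfsg.Agent.Lib.Helper6.DC

open scoped commutatorElement

/-- the induction principle for even permutations -/
def EvenSt (n : ℕ) : Prop :=
  ∀ (P : Equiv.Perm (Fin n) → Prop), P 1 →
    (∀ (i j k l : Fin n) (σ : Equiv.Perm (Fin n)), i ≠ j → k ≠ l → P σ →
      P (Equiv.swap i j * Equiv.swap k l * σ)) →
    ∀ σ : Equiv.Perm (Fin n), σ ∈ alternatingGroup (Fin n) → P σ

variable {R : Type*} [Ring R] {n : ℕ} (S : Sys R n)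

namespace Sys

variable [Nontrivial R]

include S in
lemma neg_one_ne_one : (-1 : Rˣ) ≠ 1 := by
  intro h
  have h' : (-1 : R) = 1 := by simpa using congrArg Units.val h
  have h2 : (2 : R) = 1 := by rw [S.two_eq, h']
  have h1 : (1 : R) = 0 := by
    have e : (2 : R) = 1 + 1 := by norm_num
    rw [e] at h2
    exact add_eq_right.1 h2
  exact one_ne_zero h1

lemma pi_surjective (heven : EvenSt n) : Function.Surjective S.pi := by
  rintro ⟨σ, hσ⟩
  have key : ∃ u : S.Gam, S.Rel u σ := by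
    refine heven (fun σ => ∃ u : S.Gam, S.Rel u σ) ⟨1, S.rel_one⟩ ?_ σ hσ
    rintro i j k l τ hij hkl ⟨u, hu⟩
    exact ⟨⟨_, S.TT_mem hij hkl⟩ * u, (S.rel_TT hij hkl).mul S hu⟩
  obtain ⟨u, hu⟩ := key
  exact ⟨u, Subtype.ext (S.pi_eq hu)⟩

end Sys

theorem cover_of_sys {R : Type} [Ring R] [Finite R] [Nontrivial R] {n : ℕ} (S : Sys R n)
    (hn : 4 ≤ n) (heven : EvenSt n) :
    ∃ (Γ : Type) (_ : Group Γ) (_ : Finite Γ) (π : Γ →* alternatingGroup (Fin n)) (z : Γ),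
      Function.Surjective π ∧ π.ker = Subgroup.zpowers z ∧ orderOf z = 2 ∧
      z ∈ Subgroup.center Γ ∧ z ∈ commutator Γ ∧ (8 ≤ n → ∃ x : Γ, orderOf x = 2 ∧ x ≠ z) := by
  have d01 : (⟨0, by omega⟩ : Fin n) ≠ ⟨1, by omega⟩ := by simp [Fin.ext_iff]
  have d02 : (⟨0, by omega⟩ : Fin n) ≠ ⟨2, by omega⟩ := by simp [Fin.ext_iff]
  have d03 : (⟨0, by omega⟩ : Fin n) ≠ ⟨3, by omega⟩ := by simp [Fin.ext_iff]
  have d12 : (⟨1, by omega⟩ : Fin n) ≠ ⟨2, by omega⟩ := by simp [Fin.ext_iff]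
  have d13 : (⟨1, by omega⟩ : Fin n) ≠ ⟨3, by omega⟩ := by simp [Fin.ext_iff]
  have d23 : (⟨2, by omega⟩ : Fin n) ≠ ⟨3, by omega⟩ := by simp [Fin.ext_iff]
  have hz : (-1 : Rˣ) ∈ S.Gam := S.neg_one_mem d01 d23 d02 d03 d12 d13
  have hzker : (⟨-1, hz⟩ : S.Gam) ∈ S.pi.ker := (S.mem_ker_iff _).2 (Or.inr rfl)
  refine ⟨S.Gam, inferInstance, inferInstance, S.pi, ⟨-1, hz⟩, S.pi_surjective heven, ?_, ?_, ?_, ?_, ?_⟩
  · apply le_antisymm
    · intro u hu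
      rcases (S.mem_ker_iff u).1 hu with h | h
      · have : u = 1 := Subtype.ext h
        rw [this]; exact one_mem _
      · have : u = ⟨-1, hz⟩ := Subtype.ext h
        rw [this]; exact Subgroup.mem_zpowers _
    · rw [Subgroup.zpowers_le]; exact hzker
  · apply orderOf_eq_prime
    · apply Subtype.ext; simp
    · intro h
      exact S.neg_one_ne_one (congrArg Subtype.val h)
  · rw [Subgroup.mem_center_iff]
    intro g
    apply Subtype.ext
    simp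
  · have h := S.comm_eq d01 d23 d02 d03 d12 d13
    have h2 : (⟨-1, hz⟩ : S.Gam) = ⁅(⟨_, S.TT_mem d01 d23⟩ : S.Gam), ⟨_, S.TT_mem d02 d13⟩⁆ := by
      apply Subtype.ext
      exact h.symm
    rw [h2, commutator_def]
    exact Subgroup.commutator_mem_commutator (Subgroup.mem_top _) (Subgroup.mem_top _)
  · intro h8
    have e01 : (⟨0, by omega⟩ : Fin n) ≠ ⟨1, by omega⟩ := d01
    have e23 : (⟨2, by omega⟩ : Fin n) ≠ ⟨3, by omega⟩ := d23
    have e45 : (⟨4, by omega⟩ : Fin n) ≠ ⟨5, by omega⟩ := by simp [Fin.ext_iff]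
    have e67 : (⟨6, by omega⟩ : Fin n) ≠ ⟨7, by omega⟩ := by simp [Fin.ext_iff]
    have ne : ∀ (p q : ℕ) (hp : p < n) (hq : q < n), p ≠ q → (⟨p, hp⟩ : Fin n) ≠ ⟨q, hq⟩ := by
      intro p q hp hq hpq h
      exact hpq (Fin.ext_iff.1 h)
    set x : S.Gam := ⟨_, S.TT_mem e01 e23⟩ * ⟨_, S.TT_mem e45 e67⟩ with hx
    have hrel : S.Rel x ((Equiv.swap (⟨0, by omega⟩ : Fin n) ⟨1, by omega⟩ * Equiv.swap ⟨2, by omega⟩ ⟨3, by omega⟩) *
        (Equiv.swap ⟨4, by omega⟩ ⟨5, by omega⟩ * Equiv.swap ⟨6, by omega⟩ ⟨7, by omega⟩)) :=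
      (S.rel_TT e01 e23).mul S (S.rel_TT e45 e67)
    have hnk : x ∉ S.pi.ker := by
      intro hk
      have h1 := S.pi_eq hrel
      rw [MonoidHom.mem_ker.1 hk] at h1
      have h2 := congrArg (fun σ : Equiv.Perm (Fin n) => σ ⟨0, by omega⟩) h1
      simp only [Equiv.Perm.mul_apply] at h2
      rw [Equiv.swap_apply_of_ne_of_ne (ne 0 6 _ _ (by norm_num)) (ne 0 7 _ _ (by norm_num)),
        Equiv.swap_apply_of_ne_of_ne (ne 0 4 _ _ (by norm_num)) (ne 0 5 _ _ (by norm_num)),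
        Equiv.swap_apply_of_ne_of_ne (ne 0 2 _ _ (by norm_num)) (ne 0 3 _ _ (by norm_num)),
        Equiv.swap_apply_left] at h2
      exact d01 h2
    refine ⟨x, ?_, ?_⟩
    · apply orderOf_eq_prime
      · apply Subtype.ext
        apply Units.ext
        rw [sq]
        exact Sys.sq_quad (S.sq e01) (S.sq e23) (S.sq e45) (S.sq e67)
          (S.T_anti (ne 0 2 _ _ (by norm_num)) (ne 0 3 _ _ (by norm_num)) (ne 1 2 _ _ (by norm_num)) (ne 1 3 _ _ (by norm_num)))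
          (S.T_anti (ne 4 6 _ _ (by norm_num)) (ne 4 7 _ _ (by norm_num)) (ne 5 6 _ _ (by norm_num)) (ne 5 7 _ _ (by norm_num)))
          (S.T_anti (ne 0 4 _ _ (by norm_num)) (ne 0 5 _ _ (by norm_num)) (ne 1 4 _ _ (by norm_num)) (ne 1 5 _ _ (by norm_num)))
          (S.T_anti (ne 0 6 _ _ (by norm_num)) (ne 0 7 _ _ (by norm_num)) (ne 1 6 _ _ (by norm_num)) (ne 1 7 _ _ (by norm_num)))
          (S.T_anti (ne 2 4 _ _ (by norm_num)) (ne 2 5 _ _ (by norm_num)) (ne 3 4 _ _ (by norm_num)) (ne 3 5 _ _ (by norm_num)))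
          (S.T_anti (ne 2 6 _ _ (by norm_num)) (ne 2 7 _ _ (by norm_num)) (ne 3 6 _ _ (by norm_num)) (ne 3 7 _ _ (by norm_num)))
      · intro h
        exact hnk (h ▸ one_mem _)
    · intro h
      exact hnk (h ▸ hzker)

end Cfsg.Agent.Lib.Helper6.DC
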