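import Cfsg.Agent.Lib.Helper6.DC.Asm
import Cfsg.Agent.Lib.Helper29.DCModel
import Cfsg.Agent.Lib.Helper29.DCEven

namespace Cfsg.Agent.Lib.Helper6.DC

/-- The double cover `2.A_n`, `n ≥ 4`. -/
theorem exists_cover {n : ℕ} (hn : 4 ≤ n) : CoverSt n :=
  exists_cover_of hn (Cfsg.Agent.Lib.Helper29.DC.model n)
    (fun P h1 hs σ hσ => Cfsg.Agent.Lib.Helper29.DC.even_list P h1 hs σ hσ)

end Cfsg.Agent.Lib.Helper6.DC
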