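import Mathlib

/-! Double cover of `A_n` from a system of anticommuting elements in a ring of characteristic 3. -/

namespace Cfsg.Agent.Lib.Helper6.DC

/-- anticommuting system -/
structure Sys (R : Type*) [Ring R] (n : ℕ) where
  a : Fin n → R
  b : Fin n → R
  h3 : (3 : R) = 0
  ha : ∀ i, a i * a i = 1
  haa : ∀ i j, i ≠ j → a i * a j = -(a j * a i)
  hab : ∀ i j, a i * b j = -(b j * a i)
  hc : ∀ u : R, (∀ i, u * a i = a i * u) → (∀ i, u * b i = b i * u) → u = 0 ∨ u = 1 ∨ u = -1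

variable {R : Type*} [Ring R] {n : ℕ} (S : Sys R n)

namespace Sys

include S in
lemma two_eq : (2 : R) = -1 := by
  have h := S.h3
  have : (2 : R) = 3 - 1 := by norm_num
  rw [this, h]; simp

lemma sq {i j : Fin n} (h : i ≠ j) : (S.a i - S.a j) * (S.a i - S.a j) = -1 := by
  have h1 := S.haa i j h
  calc (S.a i - S.a j) * (S.a i - S.a j)
      = S.a i * S.a i - S.a i * S.a j - S.a j * S.a i + S.a j * S.a j := by noncomm_ring
  _ = 1 - (-(S.a j * S.a i)) - S.a j * S.a i + 1 := by rw [S.ha, S.ha, h1]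
  _ = 2 := by rw [sub_neg_eq_add, add_sub_cancel_right]; norm_num
  _ = -1 := S.two_eq

/-- the unit `a i - a j` -/
def T (i j : Fin n) (h : i ≠ j) : Rˣ :=
  ⟨S.a i - S.a j, -(S.a i - S.a j), by rw [mul_neg, S.sq h, neg_neg], by rw [neg_mul, S.sq h, neg_neg]⟩

@[simp] lemma T_val (i j : Fin n) (h : i ≠ j) : ((S.T i j h : Rˣ) : R) = S.a i - S.a j := rfl

lemma T_mul_a {i j : Fin n} (h : i ≠ j) (m : Fin n) :
    (S.a i - S.a j) * S.a m = -(S.a (Equiv.swap i j m) * (S.a i - S.a j)) := by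
  by_cases hmi : m = i
  · subst hmi
    rw [Equiv.swap_apply_left, sub_mul, mul_sub, S.ha, S.ha, S.haa j m h.symm]
    noncomm_ring
  · by_cases hmj : m = j
    · subst hmj
      rw [Equiv.swap_apply_right, sub_mul, mul_sub, S.ha, S.ha]
      noncomm_ring
    · rw [Equiv.swap_apply_of_ne_of_ne hmi hmj, sub_mul, mul_sub, S.haa i m (Ne.symm hmi),
        S.haa j m (Ne.symm hmj)]
      noncomm_ring

lemma T_mul_b {i j : Fin n} (m : Fin n) :
    (S.a i - S.a j) * S.b m = -(S.b m * (S.a i - S.a j)) := by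
  rw [sub_mul, mul_sub, S.hab, S.hab]; noncomm_ring

lemma T_anti {i j k l : Fin n} (hik : i ≠ k) (hil : i ≠ l) (hjk : j ≠ k) (hjl : j ≠ l) :
    (S.a i - S.a j) * (S.a k - S.a l) = -((S.a k - S.a l) * (S.a i - S.a j)) := by
  have e1 := S.haa i k hik
  have e2 := S.haa i l hil
  have e3 := S.haa j k hjk
  have e4 := S.haa j l hjl
  calc (S.a i - S.a j) * (S.a k - S.a l)
      = S.a i * S.a k - S.a i * S.a l - S.a j * S.a k + S.a j * S.a l := by noncomm_ring
  _ = -(S.a k * S.a i) + (S.a l * S.a i) + (S.a k * S.a j) - (S.a l * S.a j) := by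
        rw [e1, e2, e3, e4]; noncomm_ring
  _ = _ := by noncomm_ring

/-- `u` acts on the `a m` as the permutation `σ`. -/
def Rel (u : Rˣ) (σ : Equiv.Perm (Fin n)) : Prop := ∀ m, (u : R) * S.a m = S.a (σ m) * u

lemma rel_one : S.Rel 1 1 := fun m => by simp

lemma Rel.mul {u v : Rˣ} {σ τ : Equiv.Perm (Fin n)} (hu : S.Rel u σ) (hv : S.Rel v τ) :
    S.Rel (u * v) (σ * τ) := fun m => by
  rw [Units.val_mul, mul_assoc, hv m, ← mul_assoc, hu (τ m), mul_assoc]; rfl

lemma Rel.inv {u : Rˣ} {σ : Equiv.Perm (Fin n)} (hu : S.Rel u σ) : S.Rel u⁻¹ σ⁻¹ := fun m => by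
  have h := hu (σ⁻¹ m)
  rw [show σ (σ⁻¹ m) = m from Equiv.apply_symm_apply σ m] at h
  -- u * a (σ⁻¹ m) = a m * u
  calc ((u⁻¹ : Rˣ) : R) * S.a m = (u⁻¹ : Rˣ) * (S.a m * u) * (u⁻¹ : Rˣ) := by
        rw [mul_assoc, mul_assoc, Units.mul_inv, mul_one]
  _ = (u⁻¹ : Rˣ) * (u * S.a (σ⁻¹ m)) * (u⁻¹ : Rˣ) := by rw [h]
  _ = _ := by rw [← mul_assoc, Units.inv_mul, one_mul]

lemma a_injective [Nontrivial R] : Function.Injective S.a := by
  intro i j hij
  by_contra hne
  have h := S.haa i j hne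
  rw [hij, S.ha] at h
  -- 1 = -1
  have h2 : (2 : R) = 0 := by
    have : (1 : R) + 1 = 0 := by nth_rewrite 1 [h]; simp
    rw [← this]; norm_num
  have h1 : (1 : R) = 0 := by
    have := S.h3
    have e : (3 : R) = 2 + 1 := by norm_num
    rw [e, h2, zero_add] at this; exact this
  exact one_ne_zero h1

lemma Rel.unique [Nontrivial R] {u : Rˣ} {σ τ : Equiv.Perm (Fin n)} (h1 : S.Rel u σ)
    (h2 : S.Rel u τ) : σ = τ := by
  ext m
  have h := (h1 m).symm.trans (h2 m)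
  have := u.isUnit.mul_left_injective h
  exact congrArg _ (S.a_injective this)

lemma rel_TT {i j k l : Fin n} (hij : i ≠ j) (hkl : k ≠ l) :
    S.Rel (S.T i j hij * S.T k l hkl) (Equiv.swap i j * Equiv.swap k l) := fun m => by
  rw [Units.val_mul, T_val, T_val, mul_assoc, S.T_mul_a hkl, mul_neg, ← mul_assoc, S.T_mul_a hij,
    neg_mul, neg_neg, mul_assoc]
  rfl

/-- generators -/
def gens : Set Rˣ := {u | ∃ (i j k l : Fin n) (hij : i ≠ j) (hkl : k ≠ l), u = S.T i j hij * S.T k l hkl}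

/-- the covering group -/
def Gam : Subgroup Rˣ := Subgroup.closure S.gens

lemma TT_mem {i j k l : Fin n} (hij : i ≠ j) (hkl : k ≠ l) : S.T i j hij * S.T k l hkl ∈ S.Gam :=
  Subgroup.subset_closure ⟨i, j, k, l, hij, hkl, rfl⟩

lemma exists_rel {u : Rˣ} (hu : u ∈ S.Gam) :
    ∃ σ : Equiv.Perm (Fin n), σ ∈ alternatingGroup (Fin n) ∧ S.Rel u σ := by
  induction hu using Subgroup.closure_induction with
  | mem x hx =>
    obtain ⟨i, j, k, l, hij, hkl, rfl⟩ := hx
    refine ⟨_, ?_, S.rel_TT hij hkl⟩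
    rw [Equiv.Perm.mem_alternatingGroup, map_mul, Equiv.Perm.sign_swap hij, Equiv.Perm.sign_swap hkl]
    rfl
  | one => exact ⟨1, one_mem _, S.rel_one⟩
  | mul x y _ _ hx hy =>
    obtain ⟨σ, hσ, h1⟩ := hx
    obtain ⟨τ, hτ, h2⟩ := hy
    exact ⟨σ * τ, mul_mem hσ hτ, h1.mul S h2⟩
  | inv x _ hx =>
    obtain ⟨σ, hσ, h1⟩ := hx
    exact ⟨σ⁻¹, inv_mem hσ, h1.inv S⟩

lemma comm_b {u : Rˣ} (hu : u ∈ S.Gam) (m : Fin n) : (u : R) * S.b m = S.b m * u := by
  induction hu using Subgroup.closure_induction with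
  | mem x hx =>
    obtain ⟨i, j, k, l, hij, hkl, rfl⟩ := hx
    rw [Units.val_mul, T_val, T_val, mul_assoc, S.T_mul_b, mul_neg, ← mul_assoc, S.T_mul_b,
      neg_mul, neg_neg, mul_assoc]
  | one => simp
  | mul x y _ _ hx hy =>
    rw [Units.val_mul, mul_assoc, hy, ← mul_assoc, hx, mul_assoc]
  | inv x _ hx =>
    calc ((x⁻¹ : Rˣ) : R) * S.b m = (x⁻¹ : Rˣ) * (S.b m * x) * (x⁻¹ : Rˣ) := by
          rw [mul_assoc, mul_assoc, Units.mul_inv, mul_one]
    _ = (x⁻¹ : Rˣ) * (x * S.b m) * (x⁻¹ : Rˣ) := by rw [hx]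
    _ = _ := by rw [← mul_assoc, Units.inv_mul, one_mul]

variable [Nontrivial R]

/-- the covering map -/
noncomputable def pi : S.Gam →* alternatingGroup (Fin n) :=
  MonoidHom.mk' (fun u => ⟨(S.exists_rel u.2).choose, (S.exists_rel u.2).choose_spec.1⟩) (by
    intro u v
    apply Subtype.ext
    have h1 := (S.exists_rel u.2).choose_spec.2
    have h2 := (S.exists_rel v.2).choose_spec.2
    have h3 := (S.exists_rel (u * v).2).choose_spec.2
    exact h3.unique S (h1.mul S h2))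

lemma rel_pi (u : S.Gam) : S.Rel u (S.pi u : Equiv.Perm (Fin n)) := (S.exists_rel u.2).choose_spec.2

lemma pi_eq {u : S.Gam} {σ : Equiv.Perm (Fin n)} (h : S.Rel u σ) :
    (S.pi u : Equiv.Perm (Fin n)) = σ := (S.rel_pi u).unique S h

lemma mem_ker_iff (u : S.Gam) : u ∈ S.pi.ker ↔ (u : Rˣ) = 1 ∨ (u : Rˣ) = -1 := by
  constructor
  · intro hu
    have h1 : S.Rel u 1 := by
      have := S.rel_pi u
      rw [MonoidHom.mem_ker.1 hu] at this
      exact this
    rcases S.hc (u : Rˣ) (fun i => h1 i) (fun i => S.comm_b u.2 i) with h | h | h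
    · exact absurd h (u : Rˣ).ne_zero
    · left; exact Units.ext h
    · right; exact Units.ext (by simpa using h)
  · rintro (h | h)
    · have : u = 1 := Subtype.ext h
      rw [this]; exact one_mem _
    · rw [MonoidHom.mem_ker]
      apply Subtype.ext
      apply S.pi_eq
      intro m
      rw [h]; simp

end Sys

end Cfsg.Agent.Lib.Helper6.DC
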