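import Cfsg.Agent.Lib.Helper6.DC.Grp

namespace Cfsg.Agent.Lib.Helper6.DC

open scoped commutatorElement

variable {R : Type*} [Ring R] {n : ℕ} (S : Sys R n)

namespace Sys

lemma sq_pair {x y : R} (hx : x * x = -1) (hy : y * y = -1) (hxy : x * y = -(y * x)) :
    (x * y) * (x * y) = -1 := by
  calc (x * y) * (x * y) = x * (y * x) * y := by noncomm_ring
  _ = x * (-(x * y)) * y := by rw [hxy, neg_neg]
  _ = -((x * x) * (y * y)) := by noncomm_ring
  _ = -1 := by rw [hx, hy]; simp

lemma neg_one_mem {i j k l : Fin n} (hij : i ≠ j) (hkl : k ≠ l) (hik : i ≠ k) (hil : i ≠ l)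
    (hjk : j ≠ k) (hjl : j ≠ l) : (-1 : Rˣ) ∈ S.Gam := by
  have h : (S.T i j hij * S.T k l hkl) * (S.T i j hij * S.T k l hkl) = -1 := by
    apply Units.ext
    simp only [Units.val_mul, T_val, Units.val_neg, Units.val_one]
    exact sq_pair (S.sq hij) (S.sq hkl) (S.T_anti hik hil hjk hjl)
  rw [← h]
  exact mul_mem (S.TT_mem hij hkl) (S.TT_mem hij hkl)

lemma comm_eq {i j k l : Fin n} (hij : i ≠ j) (hkl : k ≠ l) (hik : i ≠ k) (hil : i ≠ l)
    (hjk : j ≠ k) (hjl : j ≠ l) :
    ⁅S.T i j hij * S.T k l hkl, S.T i k hik * S.T j l hjl⁆ = -1 := by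
  set α := S.T i j hij * S.T k l hkl with hα
  set β := S.T i k hik * S.T j l hjl with hβ
  have hrel : S.Rel α (Equiv.swap i j * Equiv.swap k l) := S.rel_TT hij hkl
  have e_i : (α : R) * S.a i = S.a j * α := by
    have := hrel i
    rwa [Equiv.Perm.mul_apply, Equiv.swap_apply_of_ne_of_ne hik hil, Equiv.swap_apply_left] at this
  have e_j : (α : R) * S.a j = S.a i * α := by
    have := hrel j
    rwa [Equiv.Perm.mul_apply, Equiv.swap_apply_of_ne_of_ne hjk hjl, Equiv.swap_apply_right] at this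
  have e_k : (α : R) * S.a k = S.a l * α := by
    have := hrel k
    rwa [Equiv.Perm.mul_apply, Equiv.swap_apply_left,
      Equiv.swap_apply_of_ne_of_ne hil.symm hjl.symm] at this
  have e_l : (α : R) * S.a l = S.a k * α := by
    have := hrel l
    rwa [Equiv.Perm.mul_apply, Equiv.swap_apply_right,
      Equiv.swap_apply_of_ne_of_ne hik.symm hjk.symm] at this
  have h1 : (α : R) * (S.a i - S.a k) = (S.a j - S.a l) * α := by
    rw [mul_sub, sub_mul, e_i, e_k]
  have h2 : (α : R) * (S.a j - S.a l) = (S.a i - S.a k) * α := by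
    rw [mul_sub, sub_mul, e_j, e_l]
  have hβv : (β : R) = (S.a i - S.a k) * (S.a j - S.a l) := rfl
  have h3 : (α : R) * β = -(β * α) := by
    calc (α : R) * β = ((α : R) * (S.a i - S.a k)) * (S.a j - S.a l) := by rw [hβv, mul_assoc]
    _ = (S.a j - S.a l) * ((α : R) * (S.a j - S.a l)) := by rw [h1, mul_assoc]
    _ = ((S.a j - S.a l) * (S.a i - S.a k)) * α := by rw [h2, mul_assoc]
    _ = -(β * α) := by
      rw [S.T_anti hij.symm hjk hil.symm hkl.symm, neg_mul, hβv]
  have h4 : α * β = -(β * α) := Units.ext (by simpa using h3)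
  rw [commutatorElement_def, h4]
  simp [mul_assoc]

lemma sq_quad {x y z w : R} (hx : x * x = -1) (hy : y * y = -1) (hz : z * z = -1) (hw : w * w = -1)
    (hxy : x * y = -(y * x)) (hzw : z * w = -(w * z)) (hxz : x * z = -(z * x))
    (hxw : x * w = -(w * x)) (hyz : y * z = -(z * y)) (hyw : y * w = -(w * y)) :
    ((x * y) * (z * w)) * ((x * y) * (z * w)) = 1 := by
  have hc : (z * w) * (x * y) = (x * y) * (z * w) := by
    calc (z * w) * (x * y) = z * (w * x) * y := by noncomm_ring
    _ = z * (-(x * w)) * y := by rw [hxw, neg_neg]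
    _ = -((z * x) * (w * y)) := by noncomm_ring
    _ = -((-(x * z)) * (-(y * w))) := by rw [hxz, hyw, neg_neg, neg_neg]
    _ = -(x * (z * y) * w) := by noncomm_ring
    _ = -(x * (-(y * z)) * w) := by rw [hyz, neg_neg]
    _ = _ := by noncomm_ring
  calc ((x * y) * (z * w)) * ((x * y) * (z * w))
      = (x * y) * ((z * w) * (x * y)) * (z * w) := by noncomm_ring
  _ = ((x * y) * (x * y)) * ((z * w) * (z * w)) := by rw [hc]; noncomm_ring
  _ = 1 := by rw [sq_pair hx hy hxy, sq_pair hz hw hzw]; simp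

end Sys

end Cfsg.Agent.Lib.Helper6.DC
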