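import Cfsg.Agent.Lib.Helper6.DC.Cover

namespace Cfsg.Agent.Lib.Helper6.DC

/-- statement of the matrix model rung -/
def ModelSt (n : ℕ) : Prop :=
  ∃ (ι : Type) (_ : Fintype ι) (_ : DecidableEq ι) (_ : Nonempty ι)
    (a b : ℕ → Matrix ι ι (ZMod 3)),
    (∀ i < n, a i * a i = 1) ∧ (∀ i < n, ∀ j < n, i ≠ j → a i * a j = - (a j * a i)) ∧
    (∀ i < n, ∀ j < n, a i * b j = - (b j * a i)) ∧
    (∀ u : Matrix ι ι (ZMod 3), (∀ i < n, u * a i = a i * u) → (∀ i < n, u * b i = b i * u) →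
      ∃ c : ZMod 3, u = c • (1 : Matrix ι ι (ZMod 3)))

theorem exists_cover_of {n : ℕ} (hn : 4 ≤ n) (hm : ModelSt n) (heven : EvenSt n) :
    ∃ (Γ : Type) (_ : Group Γ) (_ : Finite Γ) (π : Γ →* alternatingGroup (Fin n)) (z : Γ),
      Function.Surjective π ∧ π.ker = Subgroup.zpowers z ∧ orderOf z = 2 ∧
      z ∈ Subgroup.center Γ ∧ z ∈ commutator Γ ∧ (8 ≤ n → ∃ x : Γ, orderOf x = 2 ∧ x ≠ z) := by
  obtain ⟨ι, _, _, _, a, b, h1, h2, h3, h4⟩ := hm
  let S : Sys (Matrix ι ι (ZMod 3)) n :=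
    { a := fun i => a i
      b := fun i => b i
      h3 := by
        have := CharP.cast_eq_zero (Matrix ι ι (ZMod 3)) 3
        simpa using this
      ha := fun i => h1 i i.2
      haa := fun i j hij => h2 i i.2 j j.2 (fun h => hij (Fin.ext h))
      hab := fun i j => h3 i i.2 j j.2
      hc := by
        intro u hu1 hu2
        obtain ⟨c, rfl⟩ := h4 u (fun i hi => hu1 ⟨i, hi⟩) (fun i hi => hu2 ⟨i, hi⟩)
        have hc : c = 0 ∨ c = 1 ∨ c = -1 := by
          clear hu1 hu2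
          revert c; decide
        rcases hc with rfl | rfl | rfl
        · left; exact zero_smul _ _
        · right; left; exact one_smul _ _
        · right; right; rw [neg_smul, one_smul] }
  exact cover_of_sys S hn heven

end Cfsg.Agent.Lib.Helper6.DC
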