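import Cfsg.Agent.Lib.Helper29.DCDih

namespace Cfsg.Agent.Lib.Helper6.DC

open Equiv Equiv.Perm

lemma pair_card {G : Type*} [Group G] [Finite G] (a b : G) (k : ℕ) (hk : 0 < k) (ha : a ^ 2 = 1)
    (hb : b ^ 2 = 1) (hc : orderOf (a * b) = 2 * k) (hna : a ∉ Subgroup.zpowers (a * b)) :
    Nat.card (Subgroup.closure ({a, b} : Set G)) = 4 * k := by
  set D := Subgroup.closure ({a, b} : Set G) with hD
  have haD : a ∈ D := Subgroup.subset_closure (by simp)
  have hbD : b ∈ D := Subgroup.subset_closure (by simp)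
  have hle : Nat.card D ≤ 2 * (2 * k) :=
    (Cfsg.Agent.Lib.Helper29.DC.dih a b (2 * k) (by omega) ha hb (by rw [← hc]; exact pow_orderOf_eq_one _)).2
  have hz : Subgroup.zpowers (a * b) ≤ D := by
    rw [Subgroup.zpowers_le]; exact mul_mem haD hbD
  have hdvd : 2 * k ∣ Nat.card D := by
    rw [← hc, ← Nat.card_zpowers]
    exact Subgroup.card_dvd_of_le hz
  obtain ⟨m, hm⟩ := hdvd
  have hpos : 0 < Nat.card D := Nat.card_pos
  have hm1 : m ≠ 1 := by
    rintro rfl
    have : Subgroup.zpowers (a * b) = D := by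
      apply Subgroup.eq_of_le_of_card_ge hz
      rw [Nat.card_zpowers, hc, hm]; omega
    exact hna (this ▸ haD)
  have hm0 : m ≠ 0 := by
    rintro rfl
    omega
  have hm2 : m ≤ 2 := by
    by_contra h
    have : 3 ≤ m := by omega
    have : 2 * k * 3 ≤ 2 * k * m := Nat.mul_le_mul_left _ this
    omega
  have : m = 2 := by omega
  rw [hm, this]; ring

lemma pair_index {n : ℕ} (hn : 2 ≤ n) (D : Subgroup (alternatingGroup (Fin n))) (c f : ℕ)
    (hc : Nat.card D = c) (hf : n.factorial = 2 * c * f) (hc0 : 0 < c) : D.index = f := by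
  have h1 := D.card_mul_index
  haveI : Nontrivial (Fin n) := Fin.nontrivial_iff_two_le.2 hn
  have h2 := two_mul_card_alternatingGroup (α := Fin n)
  rw [Fintype.card_perm, Fintype.card_fin] at h2
  rw [Nat.card_eq_fintype_card (α := alternatingGroup (Fin n)), hc] at h1
  have : 2 * c * D.index = 2 * c * f := by
    rw [← hf, ← h2, ← h1]; ring
  exact Nat.eq_of_mul_eq_mul_left (by omega) this

lemma mem2 {n : ℕ} {i j k l : Fin n} (hij : i ≠ j) (hkl : k ≠ l) :
    swap i j * swap k l ∈ alternatingGroup (Fin n) := by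
  rw [mem_alternatingGroup, map_mul, sign_swap hij, sign_swap hkl]; rfl

lemma not_mem_zpowers {G : Type*} [Group G] (a c : G) (m : ℕ) (hm : 0 < m) (hc : c ^ m = 1)
    (h : ∀ i < m, a ≠ c ^ i) : a ∉ Subgroup.zpowers c := by
  intro ha
  have hfin : IsOfFinOrder c := isOfFinOrder_iff_pow_eq_one.2 ⟨m, hm, hc⟩
  rw [← hfin.mem_powers_iff_mem_zpowers] at ha
  obtain ⟨i, rfl⟩ := ha
  apply h (i % m) (Nat.mod_lt _ hm)
  show c ^ i = c ^ (i % m)
  conv_lhs => rw [← Nat.div_add_mod i m, pow_add, pow_mul, hc, one_pow, one_mul]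

theorem pair (n : ℕ) (h4 : 4 ≤ n) (h7 : n ≤ 7) : ∃ (a b : alternatingGroup (Fin n)) (k : ℕ),
    orderOf a = 2 ∧ orderOf b = 2 ∧ orderOf ((a * b) ^ k) = 2 ∧
    Nat.card (Subgroup.closure ({a, b} : Set (alternatingGroup (Fin n)))) = 4 * k ∧
    ¬ 2 ∣ (Subgroup.closure ({a, b} : Set (alternatingGroup (Fin n)))).index := by
  interval_cases n
  · let a : alternatingGroup (Fin 4) := ⟨swap 0 1 * swap 2 3, mem2 (by decide) (by decide)⟩
    let b : alternatingGroup (Fin 4) := ⟨swap 0 2 * swap 1 3, mem2 (by decide) (by decide)⟩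
    have ha : orderOf a = 2 := orderOf_eq_prime (by decide) (by decide)
    have hb : orderOf b = 2 := orderOf_eq_prime (by decide) (by decide)
    have hab : orderOf (a * b) = 2 := orderOf_eq_prime (by decide) (by decide)
    have hcard := pair_card a b 1 one_pos (by decide) (by decide) hab
      (not_mem_zpowers a (a * b) 2 (by norm_num) (by decide) (by decide))
    refine ⟨a, b, 1, ha, hb, by rw [pow_one]; exact hab, hcard, ?_⟩
    rw [pair_index (by norm_num) _ 4 3 hcard (by decide) (by norm_num)]
    norm_num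
  · let a : alternatingGroup (Fin 5) := ⟨swap 0 1 * swap 2 3, mem2 (by decide) (by decide)⟩
    let b : alternatingGroup (Fin 5) := ⟨swap 0 2 * swap 1 3, mem2 (by decide) (by decide)⟩
    have ha : orderOf a = 2 := orderOf_eq_prime (by decide) (by decide)
    have hb : orderOf b = 2 := orderOf_eq_prime (by decide) (by decide)
    have hab : orderOf (a * b) = 2 := orderOf_eq_prime (by decide) (by decide)
    have hcard := pair_card a b 1 one_pos (by decide) (by decide) hab
      (not_mem_zpowers a (a * b) 2 (by norm_num) (by decide) (by decide))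
    refine ⟨a, b, 1, ha, hb, by rw [pow_one]; exact hab, hcard, ?_⟩
    rw [pair_index (by norm_num) _ 4 15 hcard (by decide) (by norm_num)]
    norm_num
  · let a : alternatingGroup (Fin 6) := ⟨swap 0 2 * swap 4 5, mem2 (by decide) (by decide)⟩
    let b : alternatingGroup (Fin 6) := ⟨swap 0 1 * swap 2 3, mem2 (by decide) (by decide)⟩
    have ha : orderOf a = 2 := orderOf_eq_prime (by decide) (by decide)
    have hb : orderOf b = 2 := orderOf_eq_prime (by decide) (by decide)
    have hab : orderOf (a * b) = 2 * 2 :=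
      orderOf_eq_prime_pow (p := 2) (n := 1) (by decide) (by decide)
    have hab2 : orderOf ((a * b) ^ 2) = 2 := orderOf_eq_prime (by decide) (by decide)
    have hcard := pair_card a b 2 (by norm_num) (by decide) (by decide) hab
      (not_mem_zpowers a (a * b) 4 (by norm_num) (by decide) (by decide))
    refine ⟨a, b, 2, ha, hb, hab2, hcard, ?_⟩
    rw [pair_index (by norm_num) _ 8 45 hcard (by decide) (by norm_num)]
    norm_num
  · let a : alternatingGroup (Fin 7) := ⟨swap 0 2 * swap 4 5, mem2 (by decide) (by decide)⟩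
    let b : alternatingGroup (Fin 7) := ⟨swap 0 1 * swap 2 3, mem2 (by decide) (by decide)⟩
    have ha : orderOf a = 2 := orderOf_eq_prime (by decide) (by decide)
    have hb : orderOf b = 2 := orderOf_eq_prime (by decide) (by decide)
    have hab : orderOf (a * b) = 2 * 2 :=
      orderOf_eq_prime_pow (p := 2) (n := 1) (by decide) (by decide)
    have hab2 : orderOf ((a * b) ^ 2) = 2 := orderOf_eq_prime (by decide) (by decide)
    have hcard := pair_card a b 2 (by norm_num) (by decide) (by decide) hab
      (not_mem_zpowers a (a * b) 4 (by norm_num) (by decide) (by decide))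
    refine ⟨a, b, 2, ha, hb, hab2, hcard, ?_⟩
    rw [pair_index (by norm_num) _ 8 315 hcard (by decide) (by norm_num)]
    norm_num

end Cfsg.Agent.Lib.Helper6.DC
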