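import Mathlib

namespace Cfsg.Agent.Lib.Helper6.DC

theorem small (n : ℕ) (h3 : n ≤ 3) (H : Type*) [Group H]
    (e : H ⧸ Subgroup.center H ≃* alternatingGroup (Fin n)) :
    (Subgroup.center H).IsComplement' (⊥ : Subgroup H) := by
  have hc : IsCyclic (alternatingGroup (Fin n)) := by
    interval_cases n
    · have : Subsingleton (alternatingGroup (Fin 0)) := by
        rw [← Fintype.card_le_one_iff_subsingleton]; decide
      infer_instance
    · have : Subsingleton (alternatingGroup (Fin 1)) := by
        rw [← Fintype.card_le_one_iff_subsingleton]; decide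
      infer_instance
    · have : Subsingleton (alternatingGroup (Fin 2)) := by
        rw [← Fintype.card_le_one_iff_subsingleton]; decide
      infer_instance
    · haveI : Fact (Nat.Prime 3) := ⟨by norm_num⟩
      exact isCyclic_of_prime_card (p := 3) (by rw [Nat.card_eq_fintype_card]; decide)
  have hc' : IsCyclic (H ⧸ Subgroup.center H) :=
    isCyclic_of_surjective e.symm.toMonoidHom e.symm.surjective
  have hcomm := commutative_of_cyclic_center_quotient (QuotientGroup.mk' (Subgroup.center H))
    (by rw [QuotientGroup.ker_mk'])
  have htop : Subgroup.center H = ⊤ := by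
    rw [eq_top_iff]
    intro g _
    rw [Subgroup.mem_center_iff]
    intro h
    exact hcomm h g
  rw [htop]
  exact Subgroup.isComplement'_top_bot

end Cfsg.Agent.Lib.Helper6.DC
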